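import Cfsg.Agent.H113.QS.DatZ
import Cfsg.Agent.S0928

/-!
# The split sieve in a central extension for all elements (helper611, for S2491, S2492)

`π : L →* K` onto with central kernel, `K` simple, `p` an exact self-centralizing prime of `K`, `p ∤ |ker π|`.

* `res_L` : a character of `L` of degree prime to `p` has degree `≡ ± 1` or `± e` modulo `p`; `res_K` the same for `K`;
* `card_of_dvd` : `p ∣ |g|` gives `|C_K(π g)| ≤ p`;
* `prd_all` : `H113.QS.prd_split` without the hypothesis `¬ p ∣ |g|`; `comm_all` : the commutator.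
-/

set_option autoImplicit false

namespace Cfsg.Agent.H611.QF

open Cfsg Cfsg.Agent.Characters Subgroup Cfsg.Agent.H65.Ore Cfsg.Agent.H113.QS
open Cfsg.Agent.SmallSimple.ThetaSetup

universe u v

variable {L : Type u} [Group L] [Finite L]

/-- a character that vanishes at the elements of order `p` has degree divisible by `p` -/
theorem dvd_deg {p : ℕ} (hp : p.Prime) (hL : p ∣ Nat.card L) (χ : IrrCharacter L)
    (h : ∀ x : L, orderOf x = p → (χ : L → ℂ) x = 0) : p ∣ charDegree (χ : L → ℂ) := by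
  have : Fact p.Prime := ⟨hp⟩
  have h1 := S0928.result p χ h
  have h2 : 1 ≤ (Nat.card L).factorization p := (hp.dvd_iff_one_le_factorization Nat.card_pos.ne').1 hL
  rw [← h1] at h2
  exact (hp.dvd_iff_one_le_factorization (charDegree_ne_zero χ.2)).2 h2

variable {K : Type v} [Group K] [Finite K] {π : L →* K}

/-- the degrees prime to `p` -/
theorem res_L [IsSimpleGroup K] (hK : ¬ IsMulCommutative K) (hs : Function.Surjective π) (hc : π.ker ≤ center L)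
    {p : ℕ} (hp : p.Prime) {N : ℕ} (hN : Nat.card K = N) {x₀ : K} (hx : orderOf x₀ = p)
    (hcx : Nat.card (centralizer ({x₀} : Set K)) = p) (hZ : ¬ p ∣ Nat.card π.ker) (e t S : ℕ)
    (hchk : chkSC N p e t S = true) (χ : IrrCharacter L) (h : ¬ p ∣ charDegree (χ : L → ℂ)) :
    (charDegree (χ : L → ℂ) % p = 1 ∨ charDegree (χ : L → ℂ) % p = p - 1) ∨
      (charDegree (χ : L → ℂ) % p = e ∨ charDegree (χ : L → ℂ) % p = p - e) := by
  obtain ⟨θ, hθ⟩ := exists_lies hc χ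
  obtain ⟨NE, X, hD⟩ := exists_datZ hK hs hc hp hN hx hcx hZ e t S hchk θ
  by_cases h1 : χ ∈ NE
  · exact Or.inl (hD.ne_deg χ h1)
  by_cases h2 : χ ∈ X
  · exact Or.inr (hD.x_deg χ h2)
  obtain ⟨x, hxo, -⟩ := exists_lift hs hp hZ hx
  exact absurd (dvd_deg hp (by rw [← hxo]; exact orderOf_dvd_natCard x) χ (hD.off χ hθ h1 h2)) h

/-- the degrees of `K` prime to `p` -/
theorem res_K [IsSimpleGroup K] (hK : ¬ IsMulCommutative K)
    {p : ℕ} (hp : p.Prime) {N : ℕ} (hN : Nat.card K = N) {x₀ : K} (hx : orderOf x₀ = p)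
    (hcx : Nat.card (centralizer ({x₀} : Set K)) = p) (e t S : ℕ)
    (hchk : chkSC N p e t S = true) (χ : IrrCharacter K) (h : ¬ p ∣ charDegree (χ : K → ℂ)) :
    (charDegree (χ : K → ℂ) % p = 1 ∨ charDegree (χ : K → ℂ) % p = p - 1) ∨
      (charDegree (χ : K → ℂ) % p = e ∨ charDegree (χ : K → ℂ) % p = p - e) := by
  obtain ⟨NE, X, hD⟩ := exists_dat hK hp hN hx hcx e t S hchk
  by_cases h1 : χ ∈ NE
  · exact Or.inl (hD.ne_deg χ h1)
  by_cases h2 : χ ∈ X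
  · exact Or.inr (hD.x_deg χ h2)
  exact absurd (dvd_deg hp (by rw [← hx]; exact orderOf_dvd_natCard x₀) χ (hD.off χ h1 h2)) h

/-- an element of order divisible by `p` has a centralizer of order `p` in `K` -/
theorem card_of_dvd [IsSimpleGroup K] (hK : ¬ IsMulCommutative K) (hs : Function.Surjective π) (hc : π.ker ≤ center L)
    {p : ℕ} (hp : p.Prime) {N : ℕ} (hN : Nat.card K = N) {x₀ : K} (hx : orderOf x₀ = p)
    (hcx : Nat.card (centralizer ({x₀} : Set K)) = p) (hZ : ¬ p ∣ Nat.card π.ker) (e t S : ℕ)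
    (hchk : chkSC N p e t S = true) {g : L} (hg : p ∣ orderOf g) :
    Nat.card (centralizer ({π g} : Set K)) ≤ p := by
  obtain ⟨-, -, hcy, -⟩ := setupZ hK hs hc hp hN hx hcx hZ e t S hchk
  have h1 : orderOf g ∣ orderOf (π g) * Nat.card π.ker := by
    apply orderOf_dvd_of_pow_eq_one
    have h2 : g ^ orderOf (π g) ∈ π.ker := by rw [MonoidHom.mem_ker, map_pow, pow_orderOf_eq_one]
    have h3 : (⟨_, h2⟩ : π.ker) ^ Nat.card π.ker = 1 := pow_card_eq_one'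
    rw [pow_mul]
    exact congrArg Subtype.val h3
  have h2 : p ∣ orderOf (π g) := by
    rcases (Nat.Prime.dvd_mul hp).1 (hg.trans h1) with h | h
    · exact h
    · exact absurd h hZ
  obtain ⟨k, hk⟩ := h2
  have hk0 : 0 < k := by
    rcases Nat.eq_zero_or_pos k with h0 | h0
    · rw [h0, mul_zero] at hk
      exact absurd hk (orderOf_pos (π g)).ne'
    · exact h0
  have hgk : orderOf ((π g) ^ k) = p := by
    rw [orderOf_pow' _ hk0.ne', hk, Nat.gcd_eq_right (dvd_mul_left k p), Nat.mul_div_cancel _ hk0]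
  have h3 := hcy _ hgk
  rw [← h3]
  exact card_centralizer_pow_le (π g) k

/-- **the split sieve for all elements** -/
theorem prd_all [IsSimpleGroup K] (hK : ¬ IsMulCommutative K) (hs : Function.Surjective π) (hc : π.ker ≤ center L)
    {p : ℕ} (hp : p.Prime) {N : ℕ} (hN : Nat.card K = N) {x₀ : K} (hx₀ : orderOf x₀ = p)
    (hcx : Nat.card (centralizer ({x₀} : Set K)) = p) (hZ : ¬ p ∣ Nat.card π.ker) (e t S : ℕ)
    (hchk : chkSC N p e t S = true) {x y g : L} (hx : orderOf x = p) (hy : orderOf y = p)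
    {DN DX DN' DX' c m : ℕ} (hm : Nat.card π.ker ≤ m)
    (hDN : ∀ ψ : IrrCharacter K, (ψ : K → ℂ) ≠ 1 →
      (charDegree (ψ : K → ℂ) % p = 1 ∨ charDegree (ψ : K → ℂ) % p = p - 1) → DN ≤ charDegree (ψ : K → ℂ))
    (hDX : ∀ ψ : IrrCharacter K, (ψ : K → ℂ) ≠ 1 →
      (charDegree (ψ : K → ℂ) % p = e ∨ charDegree (ψ : K → ℂ) % p = p - e) → DX ≤ charDegree (ψ : K → ℂ))
    (hDN' : ∀ χ : IrrCharacter L, (∃ z ∈ π.ker, (χ : L → ℂ) z ≠ (χ : L → ℂ) 1) →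
      (charDegree (χ : L → ℂ) % p = 1 ∨ charDegree (χ : L → ℂ) % p = p - 1) → DN' ≤ charDegree (χ : L → ℂ))
    (hDX' : ∀ χ : IrrCharacter L, (∃ z ∈ π.ker, (χ : L → ℂ) z ≠ (χ : L → ℂ) 1) →
      (charDegree (χ : L → ℂ) % p = e ∨ charDegree (χ : L → ℂ) % p = p - e) → DX' ≤ charDegree (χ : L → ℂ))
    (hcard : Nat.card (centralizer ({π g} : Set K)) ≤ c) (r r' : ℚ)
    (hpos : 0 < DN ∧ 0 < DX ∧ 0 < DN' ∧ 0 < DX' ∧ 1 < e ∧ e + 1 < p ∧ 0 ≤ r ∧ 0 ≤ r')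
    (hr : (((e : ℚ) - 1) / DN ^ 2 + ((p : ℚ) - e) ^ 2 / (t * DX ^ 2)) * c ≤ r ^ 2)
    (hr' : ((e : ℚ) / DN' ^ 2 + ((p : ℚ) - e) ^ 2 / (t * DX' ^ 2)) * c ≤ r' ^ 2)
    (hsum : r + ((m : ℚ) - 1) * r' < 1) (A B : ℕ)
    (hnum : (S - 1) * (p - 1) ≤ A ^ 2 ∧ S * p ≤ B ^ 2 ∧
      A * min DN' DX' + (m - 1) * B * min DN DX < min DN DX * min DN' DX' ∧ 1 ≤ S) : Prd x y g := by
  by_cases hg : p ∣ orderOf g
  · have hsz := (SZ.lift hK hs hc hp hN hx₀ hcx hZ e t S hchk).1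
    refine hsz.prd_two hs hc hx hy (m := m) (d₁ := min DN DX) (d₂ := min DN' DX') (c := p) A B hm ?_ ?_
      (card_of_dvd hK hs hc hp hN hx₀ hcx hZ e t S hchk hg) hnum
    · intro ψ h1 h2
      rcases res_K hK hp hN hx₀ hcx e t S hchk ψ h2 with h | h
      · exact (min_le_left _ _).trans (hDN ψ h1 h)
      · exact (min_le_right _ _).trans (hDX ψ h1 h)
    · intro χ h1 h2
      rcases res_L hK hs hc hp hN hx₀ hcx hZ e t S hchk χ h2 with h | h
      · exact (min_le_left _ _).trans (hDN' χ h1 h)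
      · exact (min_le_right _ _).trans (hDX' χ h1 h)
  · exact prd_split hK hs hc hp hN hx₀ hcx hZ e t S hchk hx hy hg hm hDN hDX hDN' hDX' hcard r r' hpos hr hr' hsum

/-- **all elements with a small centralizer are commutators** -/
theorem comm_all [IsSimpleGroup K] (hK : ¬ IsMulCommutative K) (hs : Function.Surjective π) (hc : π.ker ≤ center L)
    {p : ℕ} (hp : p.Prime) {N : ℕ} (hN : Nat.card K = N) {x₀ : K} (hx₀ : orderOf x₀ = p)
    (hcx : Nat.card (centralizer ({x₀} : Set K)) = p) (hZ : ¬ p ∣ Nat.card π.ker) (e t S : ℕ)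
    (hchk : chkSC N p e t S = true) {g : L}
    {DN DX DN' DX' c m : ℕ} (hm : Nat.card π.ker ≤ m)
    (hDN : ∀ ψ : IrrCharacter K, (ψ : K → ℂ) ≠ 1 →
      (charDegree (ψ : K → ℂ) % p = 1 ∨ charDegree (ψ : K → ℂ) % p = p - 1) → DN ≤ charDegree (ψ : K → ℂ))
    (hDX : ∀ ψ : IrrCharacter K, (ψ : K → ℂ) ≠ 1 →
      (charDegree (ψ : K → ℂ) % p = e ∨ charDegree (ψ : K → ℂ) % p = p - e) → DX ≤ charDegree (ψ : K → ℂ))
    (hDN' : ∀ χ : IrrCharacter L, (∃ z ∈ π.ker, (χ : L → ℂ) z ≠ (χ : L → ℂ) 1) →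
      (charDegree (χ : L → ℂ) % p = 1 ∨ charDegree (χ : L → ℂ) % p = p - 1) → DN' ≤ charDegree (χ : L → ℂ))
    (hDX' : ∀ χ : IrrCharacter L, (∃ z ∈ π.ker, (χ : L → ℂ) z ≠ (χ : L → ℂ) 1) →
      (charDegree (χ : L → ℂ) % p = e ∨ charDegree (χ : L → ℂ) % p = p - e) → DX' ≤ charDegree (χ : L → ℂ))
    (hcard : Nat.card (centralizer ({π g} : Set K)) ≤ c) (r r' : ℚ)
    (hpos : 0 < DN ∧ 0 < DX ∧ 0 < DN' ∧ 0 < DX' ∧ 1 < e ∧ e + 1 < p ∧ 0 ≤ r ∧ 0 ≤ r')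
    (hr : (((e : ℚ) - 1) / DN ^ 2 + ((p : ℚ) - e) ^ 2 / (t * DX ^ 2)) * c ≤ r ^ 2)
    (hr' : ((e : ℚ) / DN' ^ 2 + ((p : ℚ) - e) ^ 2 / (t * DX' ^ 2)) * c ≤ r' ^ 2)
    (hsum : r + ((m : ℚ) - 1) * r' < 1) (A B : ℕ)
    (hnum : (S - 1) * (p - 1) ≤ A ^ 2 ∧ S * p ≤ B ^ 2 ∧
      A * min DN' DX' + (m - 1) * B * min DN DX < min DN DX * min DN' DX' ∧ 1 ≤ S) :
    ∃ a b : L, g = a * b * a⁻¹ * b⁻¹ := by
  obtain ⟨x, hx, -⟩ := exists_lift hs hp hZ hx₀
  exact (prd_all hK hs hc hp hN hx₀ hcx hZ e t S hchk hx (by rw [orderOf_inv, hx]) hm hDN hDX hDN' hDX' hcard r r'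
    hpos hr hr' hsum A B hnum).comm

end Cfsg.Agent.H611.QF
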